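import Mathlib
import Cfsg.Agent.Lib.StdInt.Amb
import Cfsg.Agent.Lib.Tech.SylowIn

/-! Standard subgroup `J₁` (plans/J1S.md): definitions. -/

set_option autoImplicit false

namespace CfsgLib.J1S

open Subgroup Cfsg CfsgLib.StdInt

/-- the facts about `J₁` -/
structure JL (L : Type*) [Group L] : Prop where
  simple : IsSimpleGroup L
  nab : ¬ IsMulCommutative L
  card : Nat.card L = 175560
  inner : Inner L
  one : ∀ a b : L, a * a = 1 → b * b = 1 → a ≠ 1 → b ≠ 1 → IsConj a b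
  cen : ∀ z : L, z * z = 1 → z ≠ 1 → ∃ φ : alternatingGroup (Fin 5) →* L, Function.Injective φ ∧ z ∉ φ.range ∧
    ∀ c, c * z = z * c ↔ (c ∈ φ.range ∨ z * c ∈ φ.range)

/-- a Sylow 2-subgroup `ι F` of `L` with a torus `η`; the normaliser acts semilinearly -/
structure JF {L : Type*} [Group L] {F : Type*} [Field F] (ι η : F → L) : Prop where
  add : ∀ a b, ι (a + b) = ι a * ι b
  inj : Function.Injective ι
  two : (2 : F) = 0
  ηmul : ∀ l m, l ≠ 0 → m ≠ 0 → η (l * m) = η l * η m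
  ηι : ∀ l a, l ≠ 0 → η l * ι a * (η l)⁻¹ = ι (l * a)
  syl : ∀ R : Subgroup L, IsPGroup 2 R → (∀ a, ι a ∈ R) → ∀ r ∈ R, ∃ a, ι a = r
  semi : ∀ g, (∀ a, ∃ b, g * ι a * g⁻¹ = ι b) → ∃ (c : F) (τ : F ≃+* F),
    (∀ a, g * ι a * g⁻¹ = ι (c * τ a)) ∧ ∀ l, l ≠ 0 → ∃ a, g * η l * g⁻¹ = ι a * η (τ l)
  cv : ∀ g, (∀ a, g * ι a = ι a * g) → ∃ a, ι a = g

/-- the facts about `L` and `Aut L` for the analysis of commuting pairs (`Wf φ = O²(C_L(φ))`) -/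
structure GoodJ (L : Type*) [Group L] : Prop where
  cen : ∀ z ∈ center L, Odd (orderOf z)
  inner : Inner L
  ind : ∀ φ : MulAut L, φ * φ = 1 → φ ≠ 1 → ∀ w w', Odd (orderOf w) → Odd (orderOf w') → φ w = w → φ w' = w' →
    (∀ a, φ a = a → w' * (a * w * a⁻¹) * w'⁻¹ * (a * w * a⁻¹)⁻¹ ∈ center L) → w ∈ center L ∨ w' ∈ center L
  gen : ∀ φ : MulAut L, φ * φ = 1 → φ ≠ 1 → ∀ P Q : Subgroup L, Q ≤ P → P ≤ normalizer (Q : Set L) → Wf φ ≤ Q →
    (∀ r ∈ Q, r * r = 1 → r ≠ 1 → centralizer {r} ≤ P) → Q = ⊤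
  fix : ∀ φ ψ : MulAut L, φ * φ = 1 → φ ≠ 1 → Commute ψ φ → Two ψ → (∀ v ∈ Wf φ, Two v → ψ v = v) → ψ = 1 ∨ ψ = φ

variable {L G : Type*} [Group L] [Group G]

/-- the centraliser of `t` is `Y × ⟨t⟩ × ι L` -/
structure W0 (ι : L →* G) (t : G) (Y : Subgroup G) : Prop where
  inj : Function.Injective ι
  sq : t * t = 1
  ne : t ≠ 1
  comm : ∀ l, t * ι l = ι l * t
  yodd : ∀ y ∈ Y, Odd (orderOf y)
  yt : ∀ y ∈ Y, y * t = t * y
  yl : ∀ y ∈ Y, ∀ l, y * ι l = ι l * y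
  cen : ∀ l : L, (∀ a, l * a = a * l) → l = 1
  dec : ∀ g, g * t = t * g → ∃ y ∈ Y, ∃ l, g = y * ι l ∨ g = y * ι l * t

namespace W0

variable {ι : L →* G} {t : G} {Y : Subgroup G}

theorem t_inv (w : W0 ι t Y) : t⁻¹ = t := by
  exact inv_eq_of_mul_eq_one_right w.sq

theorem tt (w : W0 ι t Y) (x : G) : t * (t * x) = x := by
  rw [← mul_assoc, w.sq, one_mul]

theorem tt' (w : W0 ι t Y) (x : G) : x * t * t = x := by
  rw [mul_assoc, w.sq, mul_one]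

theorem conj_ι (w : W0 ι t Y) (l : L) : t * ι l * t = ι l := by
  rw [w.comm, w.tt']

theorem eq_one (w : W0 ι t Y) {y : G} {l : L} (hy : y ∈ Y) (h : y * ι l = 1) : y = 1 ∧ l = 1 := by
  have hl : l = 1 := w.cen l fun a => w.inj (by
    rw [map_mul, map_mul, ← inv_eq_of_mul_eq_one_right h, w.yl _ (inv_mem hy)])
  exact ⟨by simpa [hl] using h, hl⟩

theorem ne_t (w : W0 ι t Y) {y : G} (l : L) (hy : y ∈ Y) : y * ι l ≠ t := by
  intro h
  have hl : l = 1 := w.cen l fun a => w.inj (by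
    have e : ι l = y⁻¹ * t := by rw [← h]; group
    rw [map_mul, map_mul, e, mul_assoc, w.comm, ← mul_assoc, w.yl _ (inv_mem hy), mul_assoc])
  rw [hl, map_one, mul_one] at h
  exact w.ne (eq_one_of_odd_sq (h ▸ w.yodd y hy) w.sq)

theorem uniq (w : W0 ι t Y) {y y' : G} {l l' : L} (hy : y ∈ Y) (hy' : y' ∈ Y) (h : y * ι l = y' * ι l') :
    y = y' ∧ l = l' := by
  have := w.eq_one (mul_mem (inv_mem hy') hy) (l := l * l'⁻¹) (by
    rw [map_mul, map_inv, mul_assoc, ← mul_assoc y, h]; group)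
  exact ⟨(inv_mul_eq_one.1 this.1).symm, mul_inv_eq_one.1 this.2⟩

theorem ne_mul (w : W0 ι t Y) {y y' : G} (l l' : L) (hy : y ∈ Y) (hy' : y' ∈ Y) : y * ι l ≠ y' * ι l' * t := by
  intro h
  refine w.ne_t (l * l'⁻¹) (mul_mem (inv_mem hy') hy) ?_
  rw [map_mul, mul_assoc, ← mul_assoc y, h, mul_assoc _ t, w.comm, map_inv]; group

theorem ι_ne (w : W0 ι t Y) (l l' : L) : ι l ≠ ι l' * t := by
  simpa using w.ne_mul l l' (one_mem _) (one_mem _)

theorem two (w : W0 ι t Y) {g : G} (hg : g * t = t * g) (h2 : Two g) : ∃ l, Two l ∧ (g = ι l ∨ g = ι l * t) := by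
  obtain ⟨k, hk⟩ := h2
  obtain ⟨y, hy, l, h⟩ := w.dec g hg
  have c : Commute y (ι l) := w.yl y hy l
  have e : y ^ 2 ^ (k + 1) * ι (l ^ 2 ^ (k + 1)) = 1 := by
    rw [map_pow, ← c.mul_pow]
    have h1 : g ^ 2 ^ (k + 1) = 1 := by rw [pow_succ, pow_mul, hk, one_pow]
    rcases h with rfl | rfl
    · exact h1
    · have c' : Commute (y * ι l) t := Commute.mul_left (w.yt y hy) (w.comm l).symm
      rwa [c'.mul_pow, pow_succ' 2, pow_mul t, _root_.sq t, w.sq, one_pow, mul_one, ← pow_succ'] at h1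
  obtain ⟨e1, e2⟩ := w.eq_one (pow_mem hy _) e
  have : y = 1 := eq_one_of_odd_two (w.yodd y hy) ⟨_, e1⟩
  exact ⟨l, ⟨_, e2⟩, by simpa [this] using h⟩

theorem odd (w : W0 ι t Y) {g : G} (hg : g * t = t * g) (ho : Odd (orderOf g)) :
    ∃ y ∈ Y, ∃ l, g = y * ι l ∧ Odd (orderOf l) := by
  obtain ⟨y, hy, l, h⟩ := w.dec g hg
  have c : Commute y (ι l) := w.yl y hy l
  have h1 := pow_orderOf_eq_one g
  generalize orderOf g = n at ho h1
  rcases h with rfl | rfl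
  · rw [c.mul_pow, ← map_pow] at h1
    exact ⟨y, hy, l, rfl, odd_of_pow ho (w.eq_one (pow_mem hy _) h1).2⟩
  · have c' : Commute (y * ι l) t := Commute.mul_left (w.yt y hy) (w.comm l).symm
    rw [c'.mul_pow, c.mul_pow, ← map_pow, odd_pow_sq w.sq ho, mul_eq_one_iff_eq_inv, w.t_inv] at h1
    exact (w.ne_t _ (pow_mem hy _) h1).elim

theorem cent (w : W0 ι t Y) {g : G} (hg : g * t = t * g) :
    ∃ y ∈ Y, ∃ l, (g = y * ι l ∨ g = y * ι l * t) ∧ ∀ a, g * ι a * g⁻¹ = ι (l * a * l⁻¹) := by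
  obtain ⟨y, hy, l, h⟩ := w.dec g hg
  refine ⟨y, hy, l, h, fun a => ?_⟩
  have e : y * ι l * ι a * (y * ι l)⁻¹ = ι (l * a * l⁻¹) := by
    rw [← mul_inv_cancel_right (ι (l * a * l⁻¹)) y, ← w.yl y hy, map_mul, map_mul, map_inv]; group
  rcases h with rfl | rfl
  · exact e
  · rw [← e, mul_assoc _ t, w.comm]; group

end W0

end CfsgLib.J1S
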